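import Cfsg.Agent.Lib.SmallSimple.Basic
import Cfsg.Agent.Lib.SmallSimple.Order459648
import Cfsg.Agent.Lib.Transfer.Hall
import Mathlib.GroupTheory.Perm.Cycle.Type

/-!
# Perfect groups with forty-five Sylow subgroups of order eleven
-/

set_option autoImplicit false
set_option linter.unusedSectionVars false
set_option linter.style.haveILetI false

namespace Cfsg.Agent.Lib.Order7920Graph

open Subgroup Cfsg.Agent.Lib
open scoped commutatorElement

universe u

variable {H : Type u} [Group H] [Finite H]

/-- In a perfect group acting faithfully on its forty-five Sylow subgroups for eleven, an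
involution centralising one of them fixes no other. -/
theorem fixed_points (hperf : commutator H = ⊤) [Fact (Nat.Prime 11)]
    (hfaith : ∀ g : H, (∀ Q : Sylow 11 H, g • Q = Q) → g = 1)
    (hcard : ∀ Q : Sylow 11 H, Nat.card (Q : Subgroup H) = 11)
    (P : Sylow 11 H) (hn : Nat.card (Sylow 11 H) = 45) {t : H}
    (ht : orderOf t = 2) (htC : t ∈ centralizer ((P : Subgroup H) : Set H)) :
    ∀ Q : Sylow 11 H, t • Q = Q → Q = P := by
  classical
  haveI := Fintype.ofFinite (Sylow 11 H)
  set f := MulAction.toPermHom H (Sylow 11 H) with hf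
  have hinj : Function.Injective f := by
    rw [← MonoidHom.ker_eq_bot_iff, eq_bot_iff]
    intro g hg
    exact hfaith g fun Q => congrArg (fun e : Equiv.Perm (Sylow 11 H) => e Q) (MonoidHom.mem_ker.1 hg)
  set σ := f t with hσ
  have hσ2 : σ ^ 2 = 1 := by rw [hσ, ← map_pow, ← ht, pow_orderOf_eq_one, map_one]
  have hσ1 : σ ≠ 1 := fun h => by
    rw [show t = 1 from hinj (h.trans (map_one f).symm), orderOf_one] at ht
    omega
  have hsign := Equiv.Perm.sign_of_pow_two_eq_one hσ2
  have halt := SmallSimple.mem_alternating_of_perfect hperf f t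
  rw [Equiv.Perm.mem_alternatingGroup] at halt
  rw [← hσ] at halt
  rw [halt] at hsign
  let F := {Q : Sylow 11 H // t • Q = Q}
  have hFcard : Fintype.card (Function.fixedPoints σ) = Fintype.card F :=
    Fintype.card_congr (Equiv.refl _)
  obtain ⟨⟨x, hxP⟩, hx⟩ := exists_prime_orderOf_dvd_card' (G := (P : Subgroup H)) 11
    (by rw [hcard P])
  rw [Subgroup.orderOf_mk] at hx
  have hcomm : t * x = x * t := (mem_centralizer_iff.1 htC x hxP).symm
  let h : Function.End F := fun Q => ⟨x • Q.1, by rw [smul_smul, hcomm, ← smul_smul, Q.2]⟩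
  have hiter : ∀ k : ℕ, ∀ Q : F, ((h ^ k) Q).1 = x ^ k • Q.1 := by
    intro k
    induction k with
    | zero => intro Q; rw [pow_zero, pow_zero, one_smul]; rfl
    | succ k ih =>
      intro Q
      rw [pow_succ, pow_succ, ← smul_smul]
      exact ih (h Q)
  have hpow : h ^ 11 ^ 1 = 1 := by
    funext Q
    refine Subtype.ext ?_
    refine (hiter (11 ^ 1) Q).trans ?_
    show x ^ (11 ^ 1) • Q.1 = Q.1
    have h1 : x ^ (11 ^ 1) = 1 := by rw [pow_one, ← hx, pow_orderOf_eq_one]
    rw [h1, one_smul]
  have huniq : ∀ Q : Sylow 11 H, x • Q = Q → Q = P := by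
    intro Q hQ
    have hxN : x ∈ normalizer ((Q : Subgroup H) : Set H) := Sylow.smul_eq_iff_mem_normalizer.1 hQ
    have hxQ : x ∈ (Q : Subgroup H) := by
      have h1 := IsPGroup.inf_normalizer_sylow (P := zpowers x)
        (IsPGroup.of_card (n := 1) (by rw [Nat.card_zpowers, hx, pow_one])) Q
      exact (Subgroup.mem_inf.1 (h1.le (Subgroup.mem_inf.2 ⟨mem_zpowers x, hxN⟩))).2
    refine Sylow.ext ?_
    have e : ∀ R : Sylow 11 H, x ∈ (R : Subgroup H) → zpowers x = R := fun R hR =>
      eq_of_le_of_card_ge (zpowers_le.2 hR) (by rw [Nat.card_zpowers, hx, hcard R])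
    rw [← e Q hxQ, ← e P hxP]
  have hPfix : t • P = P := Sylow.smul_eq_iff_mem_normalizer.2 (by
    refine mem_normalizer_iff.2 fun z => ?_
    have htt : t⁻¹ = t := inv_eq_of_mul_eq_one_right (by rw [← pow_two, ← ht, pow_orderOf_eq_one])
    constructor
    · intro hz; rw [← mem_centralizer_iff.1 htC z hz, mul_inv_cancel_right]; exact hz
    · intro hz
      have e := mem_centralizer_iff.1 htC _ hz
      have e1 : t * z * t⁻¹ = z := mul_left_cancel (e.symm.trans (by group) : t * (t * z * t⁻¹) = t * z)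
      exact e1 ▸ hz)
  have hxP' : x • P = P := Sylow.smul_eq_iff_mem_normalizer.2 (Subgroup.le_normalizer hxP)
  have hfix : Fintype.card (Function.fixedPoints h) = 1 := by
    refine Fintype.card_eq_one_iff.2 ⟨⟨⟨P, hPfix⟩, Subtype.ext hxP'⟩, fun Q => ?_⟩
    exact Subtype.ext (Subtype.ext (huniq _ (congrArg Subtype.val Q.2)))
  have hmod := Equiv.Perm.card_fixedPoints_modEq hpow
  rw [hfix, Nat.ModEq] at hmod
  have hle : Fintype.card F ≤ Fintype.card (Sylow 11 H) := Fintype.card_subtype_le _
  have hlt : Fintype.card F ≠ Fintype.card (Sylow 11 H) := by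
    intro he
    apply hσ1
    ext1 Q
    have := Fintype.card_subtype_compl (fun Q : Sylow 11 H => t • Q = Q)
    rw [he, Nat.sub_self] at this
    by_contra hQ
    exact (Fintype.card_eq_zero_iff.1 this).false ⟨Q, hQ⟩
  rw [hFcard] at hsign
  have heven : Even ((Fintype.card (Sylow 11 H) - Fintype.card F) / 2) := by
    by_contra ho
    rw [Nat.not_even_iff_odd] at ho
    rw [ho.neg_one_pow] at hsign
    exact absurd hsign (by decide)
  rw [Nat.even_iff] at heven
  have hcardS : Fintype.card (Sylow 11 H) = Nat.card (Sylow 11 H) := Nat.card_eq_fintype_card.symm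
  have hdvd2 : (Fintype.card (Sylow 11 H) - Fintype.card F) % 2 = 0 := by
    have h := Equiv.Perm.card_fixedPoints_modEq (f := ((⇑σ) : Function.End (Sylow 11 H))) (p := 2) (n := 1)
      (by
        funext Q
        show σ (σ Q) = Q
        rw [← Equiv.Perm.mul_apply, ← pow_two, hσ2]; rfl)
    rw [show Fintype.card (Function.fixedPoints ((⇑σ) : Function.End (Sylow 11 H))) = Fintype.card F from
      Fintype.card_congr (Equiv.refl _), Nat.ModEq] at h
    omega
  have h1 : Fintype.card F = 1 := by omega
  intro Q hQ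
  exact congrArg Subtype.val
    ((Fintype.card_le_one_iff.1 h1.le) (⟨Q, hQ⟩ : F) ⟨P, hPfix⟩)

/-- A perfect group does not centralise a nontrivial Sylow subgroup in its normaliser. -/
theorem not_normalizer_le_centralizer {p : ℕ} [Fact p.Prime] (hperf : commutator H = ⊤)
    (P : Sylow p H) (hP : (P : Subgroup H) ≠ ⊥) :
    ¬ normalizer ((P : Subgroup H) : Set H) ≤ centralizer ((P : Subgroup H) : Set H) := by
  intro hle
  have hc := MonoidHom.ker_transferSylow_isComplement' P hle
  have htop : (MonoidHom.transferSylow P hle).ker = ⊤ := by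
    rw [eq_top_iff, ← hperf, _root_.commutator_def, commutator_le]
    intro a _ b _
    rw [MonoidHom.mem_ker, map_commutatorElement, commutatorElement_eq_one_iff_mul_comm]
    refine Subtype.ext ?_
    exact mem_centralizer_iff.1 (hle (le_normalizer (MonoidHom.transferSylow P hle b).2)) _
      (MonoidHom.transferSylow P hle a).2
  rw [htop] at hc
  exact hP (isComplement'_top_left.1 hc)

/-- No perfect group acts faithfully on forty-five Sylow subgroups for eleven whose centralisers
have index two in their normalisers. -/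
theorem no_fortyfive (hperf : commutator H = ⊤) [Fact (Nat.Prime 11)]
    (hfaith : ∀ g : H, (∀ Q : Sylow 11 H, g • Q = Q) → g = 1)
    (hcard : ∀ Q : Sylow 11 H, Nat.card (Q : Subgroup H) = 11)
    (P : Sylow 11 H) (hn : Nat.card (Sylow 11 H) = 45)
    (h2 : Nat.card (normalizer ((P : Subgroup H) : Set H)) =
      2 * Nat.card (centralizer ((P : Subgroup H) : Set H))) : False := by
  classical
  haveI : Fact (Nat.Prime 2) := ⟨Nat.prime_two⟩
  set C := centralizer ((P : Subgroup H) : Set H) with hCdef
  set N := normalizer ((P : Subgroup H) : Set H) with hNdef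
  have hNn : Nat.card N * 45 = Nat.card H := by
    rw [← hn, SmallSimple.card_sylow_eq_index P, card_mul_index]
  obtain ⟨S0⟩ : Nonempty (Sylow 2 N) := inferInstance
  obtain ⟨S, hS⟩ : ∃ S : Sylow 2 H, (S : Subgroup H) = (S0 : Subgroup N).map N.subtype := by
    refine ⟨Sylow.ofCard ((S0 : Subgroup N).map N.subtype) ?_, rfl⟩
    rw [card_map_of_injective N.subtype_injective, S0.card_eq_multiplicity, ← hNn,
      Nat.factorization_mul Nat.card_pos.ne' (by norm_num), Finsupp.add_apply,
      Nat.factorization_eq_zero_of_not_dvd (show ¬ 2 ∣ 45 by norm_num), add_zero]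
  have hSN : (S : Subgroup H) ≤ N := hS ▸ map_subtype_le _
  have hle : C ≤ N := by
    intro y hy
    rw [hNdef, mem_normalizer_iff]
    intro z
    constructor
    · intro hz
      rw [← mem_centralizer_iff.1 hy z hz, mul_inv_cancel_right]; exact hz
    · intro hz
      have h1 := mem_centralizer_iff.1 hy _ hz
      have : y * z * y⁻¹ = z := mul_left_cancel (h1.symm.trans (by group) : y * (y * z * y⁻¹) = y * z)
      exact this ▸ hz
  have hindex : (C.subgroupOf N).index = 2 := by
    have h := (C.subgroupOf N).card_mul_index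
    rw [Nat.card_congr (subgroupOfEquivOfLe hle).toEquiv, h2, mul_comm 2] at h
    exact Nat.eq_of_mul_eq_mul_left Nat.card_pos h
  have hnotle : ¬ (S : Subgroup H) ≤ C := by
    intro h
    have h0 : (S0 : Subgroup N) ≤ C.subgroupOf N := fun z hz =>
      mem_subgroupOf.2 (h (hS ▸ mem_map_of_mem N.subtype hz))
    have h1 := index_dvd_of_le h0
    rw [hindex] at h1
    exact S0.not_dvd_index h1
  have hfoc : (S : Subgroup H).focalSubgroup = (S : Subgroup H) := by
    have h := (Transfer.focal_theorem (S : Subgroup H) ?_).1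
    · rw [h, hperf, top_inf_eq]
    · refine Nat.Coprime.coprime_dvd_right (Subgroup.relIndex_dvd_card _ _) ?_
      obtain ⟨k, hk⟩ := S.isPGroup'.exists_card_eq
      rw [hk]
      exact Nat.Coprime.pow_right k
        ((Nat.Prime.coprime_iff_not_dvd Nat.prime_two).2 S.not_dvd_index).symm
  obtain ⟨k, hkS, g, hgS, hmix⟩ : ∃ k ∈ (S : Subgroup H), ∃ g : H,
      g * k * g⁻¹ ∈ (S : Subgroup H) ∧ k ∈ C ∧ g * k * g⁻¹ ∉ C := by
    by_contra hc
    push Not at hc
    apply hnotle
    rw [← hfoc, Subgroup.focalSubgroup_def, closure_le]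
    rintro z ⟨hz, a, ha, u, rfl⟩
    show ⁅a, u⁆ ∈ C
    have hua : u * a⁻¹ * u⁻¹ ∈ (S : Subgroup H) := by
      have h := mul_mem (inv_mem ha) hz
      rw [commutatorElement_def] at h
      simpa [mul_assoc] using h
    by_cases haC : a ∈ C
    · have h := hc a⁻¹ (inv_mem ha) u hua (inv_mem haC)
      rw [commutatorElement_def, mul_assoc a u, mul_assoc a]
      exact mul_mem haC h
    · have huaC : u * a⁻¹ * u⁻¹ ∉ C := by
        intro h
        refine haC ?_
        have e : u⁻¹ * (u * a⁻¹ * u⁻¹) * u⁻¹⁻¹ = a⁻¹ := by group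
        have h' := hc _ hua u⁻¹ (by rw [e]; exact inv_mem ha) h
        rw [e] at h'
        exact inv_mem_iff.1 h'
      rw [commutatorElement_def, mul_assoc a u, mul_assoc a]
      exact (mul_mem_iff_of_index_two hindex (a := ⟨a, hSN ha⟩) (b := ⟨_, hSN hua⟩)).2
        (by simp only [mem_subgroupOf]; exact iff_of_false haC huaC)
  obtain ⟨hkC, hgC⟩ := hmix
  have hk1 : k ≠ 1 := fun h => hgC (by rw [h, mul_one, mul_inv_cancel]; exact one_mem C)
  obtain ⟨e, he⟩ := S.isPGroup' ⟨k, hkS⟩
  have hke : k ^ 2 ^ e = 1 := congrArg Subtype.val he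
  obtain ⟨r, -, hr⟩ := (Nat.dvd_prime_pow Nat.prime_two).1 (orderOf_dvd_of_pow_eq_one hke)
  have hr0 : r ≠ 0 := fun h => hk1 (orderOf_eq_one_iff.1 (by rw [hr, h, pow_zero]))
  set t := k ^ 2 ^ (r - 1) with htdef
  have ht : orderOf t = 2 := by
    rw [htdef, orderOf_pow' _ (by positivity), hr,
      Nat.gcd_eq_right (pow_dvd_pow 2 (Nat.sub_le r 1)), Nat.pow_div (Nat.sub_le r 1) two_pos,
      show r - (r - 1) = 1 by omega, pow_one]
  have huniq := fixed_points hperf hfaith hcard P hn ht (pow_mem hkC _)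
  have hkfix : ∀ Q : Sylow 11 H, k • Q = Q → Q = P := fun Q hQ => huniq Q (by
    rw [htdef]
    generalize 2 ^ (r - 1) = j
    induction j with
    | zero => rw [pow_zero, one_smul]
    | succ j ih => rw [pow_succ, ← smul_smul, hQ, ih])
  have h2' : g⁻¹ • P = P := by
    refine hkfix _ ?_
    have h1 : (g * k * g⁻¹) • P = P := Sylow.smul_eq_iff_mem_normalizer.2 (hSN hgS)
    rw [← smul_smul, ← smul_smul] at h1
    exact eq_inv_smul_iff.2 h1
  have hgN : g ∈ N := by
    have := inv_mem (Sylow.smul_eq_iff_mem_normalizer.1 h2')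
    rwa [inv_inv] at this
  refine hgC ?_
  rw [hCdef, mem_centralizer_iff]
  intro z hz
  have hz' : g⁻¹ * z * g ∈ (P : Subgroup H) := by
    have := (mem_normalizer_iff.1 (inv_mem hgN) z).1 hz
    simpa using this
  calc z * (g * k * g⁻¹) = g * ((g⁻¹ * z * g) * k) * g⁻¹ := by group
    _ = g * (k * (g⁻¹ * z * g)) * g⁻¹ := by rw [mem_centralizer_iff.1 hkC _ hz']
    _ = g * k * g⁻¹ * z := by group

end Cfsg.Agent.Lib.Order7920Graph
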