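import Cfsg.Agent.Lib.Order7920Graph.Action

/-!
# A group of order 7920 with disconnected prime graph is simple
-/

set_option autoImplicit false
set_option linter.unusedSectionVars false
set_option linter.style.haveILetI false

namespace Cfsg.Agent.Lib.Order7920Graph

open Subgroup Cfsg.Agent.Lib
open scoped commutatorElement

universe u

variable {G : Type u} [Group G] [Finite G]

/-- A partition of the prime divisors of the order without edges between the parts. -/
structure Split (G : Type u) [Group G] (A : Set ℕ) : Prop where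
  eleven : 11 ∈ A
  outside : ∃ b ∉ A, b.Prime ∧ b ∣ Nat.card G
  noedge : ∀ a ∈ A, ∀ b ∉ A, a.Prime → b.Prime → a ∣ Nat.card G → b ∣ Nat.card G →
    ¬ ∃ g : G, orderOf g = a * b

variable {A : Set ℕ}

/-- Commuting elements of prime orders lie on the same side. -/
theorem Split.same (hA : Split G A) {a b : G} {p q : ℕ} (hp : p.Prime) (hq : q.Prime)
    (ha : orderOf a = p) (hb : orderOf b = q) (hab : Commute a b) (hpA : p ∈ A) : q ∈ A := by
  by_contra hqA
  have hne : p ≠ q := fun h => hqA (h ▸ hpA)
  refine hA.noedge p hpA q hqA hp hq (ha ▸ orderOf_dvd_natCard a) (hb ▸ orderOf_dvd_natCard b)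
    ⟨a * b, ?_⟩
  rw [hab.orderOf_mul_eq_mul_orderOf_of_coprime
    (by rw [ha, hb]; exact (Nat.coprime_primes hp hq).2 hne), ha, hb]

theorem Split.mem_of_dvd_centralizer (hA : Split G A) {a : G} {p q : ℕ} (hp : p.Prime) (hq : q.Prime)
    (ha : orderOf a = p) (hd : q ∣ Nat.card (centralizer ({a} : Set G))) (hpA : p ∈ A) : q ∈ A := by
  haveI := Fact.mk hq
  obtain ⟨⟨b, hb⟩, ho⟩ := exists_prime_orderOf_dvd_card' q hd
  rw [orderOf_mk] at ho
  exact hA.same hp hq ha ho (mem_centralizer_singleton_iff.1 hb).symm hpA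

theorem Split.not_mem_of_dvd_centralizer (hA : Split G A) {a : G} {p q : ℕ} (hp : p.Prime)
    (hq : q.Prime) (ha : orderOf a = p) (hd : q ∣ Nat.card (centralizer ({a} : Set G)))
    (hpA : p ∉ A) : q ∉ A := by
  intro hqA
  haveI := Fact.mk hq
  obtain ⟨⟨b, hb⟩, ho⟩ := exists_prime_orderOf_dvd_card' q hd
  rw [orderOf_mk] at ho
  exact hpA (hA.same hq hp ho ha (mem_centralizer_singleton_iff.1 hb) hqA)

theorem prime_cases (hG : Nat.card G = 7920) {p : ℕ} (hp : p.Prime) (hd : p ∣ Nat.card G) :
    p = 2 ∨ p = 3 ∨ p = 5 ∨ p = 11 := by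
  have h : p ∈ Nat.primeFactors 7920 := Nat.mem_primeFactors.2 ⟨hp, hG ▸ hd, by norm_num⟩
  have he : (7920 : ℕ).primeFactors = {2, 3, 5, 11} := by
    rw [show (7920 : ℕ) = 2 ^ 4 * (3 ^ 2 * (5 * 11)) by norm_num,
      Nat.primeFactors_mul (by norm_num) (by norm_num), Nat.primeFactors_mul (by norm_num) (by norm_num),
      Nat.primeFactors_mul (by norm_num) (by norm_num), Nat.primeFactors_prime_pow (by norm_num) Nat.prime_two,
      Nat.primeFactors_prime_pow (by norm_num) Nat.prime_three,
      Nat.Prime.primeFactors (by norm_num), Nat.Prime.primeFactors (by norm_num)]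
    decide
  rw [he] at h
  simpa using h

theorem card_sylow (hG : Nat.card G = 7920) [Fact (Nat.Prime 11)] (P : Sylow 11 G) :
    Nat.card (P : Subgroup G) = 11 :=
  (SmallSimple.card_sylow_subgroup P (k := 1) (m := 720) (by rw [hG]; norm_num) (by norm_num)).trans
    (pow_one _)

private theorem cases_eleven : ∀ k ∈ Nat.divisors 720, k % 11 = 1 →
    k = 1 ∨ k = 12 ∨ k = 45 ∨ k = 144 := by decide +kernel

private theorem cases_five : ∀ k ∈ Nat.divisors 1584, k % 5 = 1 → ∀ m ∈ Nat.divisors 4,
    5 * m * k = 7920 → m = 4 := by decide +kernel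

/-- A normal subgroup of order prime to eleven centralises every Sylow subgroup for eleven. -/
theorem le_centralizer (hG : Nat.card G = 7920) [Fact (Nat.Prime 11)] (P : Sylow 11 G)
    (K : Subgroup G) [K.Normal] (hK : ¬ 11 ∣ Nat.card K) :
    K ≤ centralizer ((P : Subgroup G) : Set G) := by
  classical
  intro k hk
  rw [mem_centralizer_iff]
  intro x hx
  by_cases hx1 : x = 1
  · rw [hx1, one_mul, mul_one]
  have hxo : orderOf x = 11 := by
    have h := orderOf_dvd_natCard (⟨x, hx⟩ : (P : Subgroup G))
    rw [card_sylow hG P, orderOf_mk] at h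
    rcases (by norm_num : Nat.Prime 11).eq_one_or_self_of_dvd _ h with h' | h'
    · exact absurd (orderOf_eq_one_iff.1 h') hx1
    · exact h'
  haveI : Finite K := inferInstance
  -- every Sylow subgroup of K is normalised and hence centralised by a conjugate of x
  have key : ∀ q : ℕ, ∀ (_ : Fact q.Prime), ∀ (Q : Sylow q K),
      ∀ z : G, orderOf z = 11 → z ∈ normalizer (((Q : Subgroup K).map K.subtype : Subgroup G) : Set G) →
      ∀ w ∈ (Q : Subgroup K).map K.subtype, z * w = w * z := by
    intro q hq Q z hz hzN w hw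
    set T := (Q : Subgroup K).map K.subtype with hT
    haveI := Fintype.ofFinite T
    have hTsmall : Nat.card T < 22 ∧ ¬ 11 ∣ Nat.card T := by
      obtain ⟨j, hj⟩ := Q.isPGroup'.exists_card_eq
      have hc : Nat.card T = q ^ j := by rw [hT, card_map_of_injective K.subtype_injective, hj]
      have hd : q ^ j ∣ 7920 := hG ▸ hc ▸ card_subgroup_dvd_card T
      have h11 : ¬ 11 ∣ q ^ j := fun h => hK (h.trans (hj ▸ card_subgroup_dvd_card (Q : Subgroup K)))
      rcases Nat.eq_zero_or_pos j with rfl | hj0
      · rw [hc, pow_zero]; norm_num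
      have hq4 := prime_cases hG hq.out (hG ▸ (dvd_pow_self q hj0.ne').trans hd)
      refine ⟨?_, hc ▸ h11⟩
      have hbound : ∀ (n : ℕ), ¬ q ^ (n + 1) ∣ 7920 → q ^ j ≤ q ^ n := fun n hn =>
        Nat.pow_le_pow_right hq.out.pos (by
          by_contra hlt
          exact hn ((pow_dvd_pow q (by omega)).trans hd))
      rw [hc]
      rcases hq4 with rfl | rfl | rfl | rfl
      · have := hbound 4 (by norm_num); omega
      · have := hbound 2 (by norm_num); omega
      · have := hbound 1 (by norm_num); omega
      · exact absurd (dvd_pow_self 11 hj0.ne') h11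
    let e : Function.End T := fun a => ⟨z * a * z⁻¹, (mem_normalizer_iff.1 hzN a).1 a.2⟩
    have hiter : ∀ i : ℕ, ∀ a : T, (((e ^ i) a : T) : G) = z ^ i * a * (z ^ i)⁻¹ := by
      intro i
      induction i with
      | zero => intro a; simp only [pow_zero, one_mul, inv_one, mul_one]; rfl
      | succ i ih =>
        intro a
        rw [pow_succ, pow_succ]
        refine (ih (e a)).trans ?_
        show z ^ i * (z * a * z⁻¹) * (z ^ i)⁻¹ = _
        group
    have hpow : e ^ 11 ^ 1 = 1 := by
      funext a
      refine Subtype.ext ((hiter _ a).trans ?_)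
      rw [pow_one, ← hz, pow_orderOf_eq_one, one_mul, inv_one, mul_one]
      rfl
    have hmod := Equiv.Perm.card_fixedPoints_modEq hpow
    let F : Subgroup G := T ⊓ centralizer ({z} : Set G)
    have hFle : F ≤ T := inf_le_left
    have hFcard : Fintype.card (Function.fixedPoints e) = Nat.card F := by
      rw [← Nat.card_eq_fintype_card]
      refine Nat.card_congr ⟨fun a => ⟨a.1.1, ?_⟩, fun a => ⟨⟨a.1, hFle a.2⟩, ?_⟩, fun a => rfl, fun a => rfl⟩
      · refine mem_inf.2 ⟨a.1.2, mem_centralizer_singleton_iff.2 ?_⟩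
        have h := congrArg Subtype.val (a.2 : e a.1 = a.1)
        simp only [e] at h
        rw [mul_inv_eq_iff_eq_mul] at h
        exact h.symm
      · refine Subtype.ext ?_
        show z * a.1 * z⁻¹ = a.1
        rw [mul_inv_eq_iff_eq_mul]
        exact (mem_centralizer_singleton_iff.1 (mem_inf.1 a.2).2).symm
    rw [hFcard, ← Nat.card_eq_fintype_card, Nat.ModEq] at hmod
    obtain ⟨r, hr⟩ := card_dvd_of_le hFle
    have hle := Nat.le_of_dvd Nat.card_pos (card_dvd_of_le hFle)
    have hFT : F = T := by
      refine eq_of_le_of_card_ge hFle ?_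
      rcases Nat.lt_or_ge r 2 with hr2 | hr2
      · interval_cases r <;> omega
      · exfalso
        have h11 : (11 : ℕ) ∣ Nat.card T - Nat.card F := Nat.dvd_of_mod_eq_zero (by omega)
        have hlt := hTsmall.1
        have hF0 : 0 < Nat.card F := Nat.card_pos
        have h22 : Nat.card T - Nat.card F = 11 := by
          obtain ⟨s, hs⟩ := h11
          have h2F : 2 * Nat.card F ≤ Nat.card T := by rw [hr, mul_comm 2]; exact Nat.mul_le_mul_left _ hr2
          omega
        have hdvd11 : Nat.card F ∣ 11 := h22 ▸ Nat.dvd_sub (card_dvd_of_le hFle) dvd_rfl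
        rcases (by norm_num : Nat.Prime 11).eq_one_or_self_of_dvd _ hdvd11 with hF1 | hF1
        · -- a single fixed element: twelve elements
          have h12 : Nat.card T = 12 := by omega
          obtain ⟨j, hj⟩ := Q.isPGroup'.exists_card_eq
          have hc : Nat.card T = q ^ j := by rw [hT, card_map_of_injective K.subtype_injective, hj]
          have h2 : (2 : ℕ) ∣ q ^ j := by rw [← hc, h12]; norm_num
          have h3 : (3 : ℕ) ∣ q ^ j := by rw [← hc, h12]; norm_num
          have := (Nat.prime_dvd_prime_iff_eq Nat.prime_two hq.out).1 (Nat.prime_two.dvd_of_dvd_pow h2)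
          have := (Nat.prime_dvd_prime_iff_eq Nat.prime_three hq.out).1 (Nat.prime_three.dvd_of_dvd_pow h3)
          omega
        · exact hTsmall.2 (hF1 ▸ card_dvd_of_le hFle)
    exact (mem_centralizer_singleton_iff.1 (mem_inf.1 (hFT.symm ▸ hw : w ∈ F)).2).symm
  -- the centraliser of x meets every Sylow subgroup of K fully
  set C := centralizer ({x} : Set G) with hCdef
  suffices hKC : K ≤ C by
    exact (mem_centralizer_singleton_iff.1 (hKC hk)).symm
  have hdvd : ∀ q : ℕ, q.Prime → q ^ (Nat.card K).factorization q ∣ Nat.card (K ⊓ C : Subgroup G) := by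
    intro q hq
    haveI := Fact.mk hq
    obtain ⟨Q⟩ : Nonempty (Sylow q K) := inferInstance
    set T := (Q : Subgroup K).map K.subtype with hT
    have hFr : normalizer (T : Set G) ⊔ K = ⊤ := Sylow.normalizer_sup_eq_top Q
    have hNdvd : 11 ∣ Nat.card (normalizer (T : Set G)) := by
      have hsurj : Function.Surjective
          ((QuotientGroup.mk' K).comp (normalizer (T : Set G)).subtype) := by
        intro a
        obtain ⟨b, rfl⟩ := QuotientGroup.mk_surjective a
        obtain ⟨n, hn, k, hk, rfl⟩ := Subgroup.mem_sup_of_normal_right.1 (hFr ▸ mem_top b :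
          b ∈ normalizer (T : Set G) ⊔ K)
        exact ⟨⟨n, hn⟩, by simpa using (QuotientGroup.eq_one_iff k).2 hk⟩
      refine Dvd.dvd.trans ?_ (Subgroup.card_dvd_of_surjective _ hsurj)
      have hc := Subgroup.card_eq_card_quotient_mul_card_subgroup K
      rw [hG] at hc
      exact ((by norm_num : Nat.Prime 11).dvd_mul.1 (hc ▸ (by norm_num : 11 ∣ 7920))).resolve_right hK
    obtain ⟨⟨z, hzN⟩, hzo⟩ := exists_prime_orderOf_dvd_card' 11 hNdvd
    rw [orderOf_mk] at hzo
    -- conjugate z into P
    obtain ⟨R, hR⟩ := (IsPGroup.of_card (p := 11) (n := 1)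
      (G := zpowers z) (by rw [Nat.card_zpowers, hzo, pow_one])).exists_le_sylow
    obtain ⟨g, hg⟩ := MulAction.exists_smul_eq G R P
    have hgz : g * z * g⁻¹ ∈ (P : Subgroup G) := by
      rw [← hg, Sylow.coe_subgroup_smul]
      exact ⟨z, hR (mem_zpowers z), by simp [MulAut.conj_apply]⟩
    have hgen : zpowers (g * z * g⁻¹) = (P : Subgroup G) :=
      eq_of_le_of_card_ge (zpowers_le.2 hgz) (by
        rw [Nat.card_zpowers, card_sylow hG P, show g * z * g⁻¹ = MulAut.conj g z from rfl,
          MulEquiv.orderOf_eq, hzo])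
    have hle : T.map (MulAut.conj g).toMonoidHom ≤ K ⊓ C := by
      rintro _ ⟨w, hw, rfl⟩
      have hwK : w ∈ K := map_subtype_le _ hw
      refine mem_inf.2 ⟨‹K.Normal›.conj_mem w hwK g, mem_centralizer_singleton_iff.2 ?_⟩
      have hc := key q ⟨hq⟩ Q z hzo hzN w hw
      have hcg : Commute (g * z * g⁻¹) (g * w * g⁻¹) := by
        show _ * _ = _ * _
        calc g * z * g⁻¹ * (g * w * g⁻¹) = g * (z * w) * g⁻¹ := by group
          _ = g * (w * z) * g⁻¹ := by rw [hc]
          _ = g * w * g⁻¹ * (g * z * g⁻¹) := by group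
      obtain ⟨i, hi⟩ := mem_zpowers_iff.1 (hgen.ge hx)
      rw [← hi]
      exact ((hcg.zpow_left i).eq).symm
    refine Dvd.dvd.trans ?_ (card_dvd_of_le hle)
    rw [card_map_of_injective (MulAut.conj g).injective, hT,
      card_map_of_injective K.subtype_injective, Q.card_eq_multiplicity]
  have hcardKC : Nat.card K ∣ Nat.card (K ⊓ C : Subgroup G) :=
    (Nat.factorization_prime_le_iff_dvd Nat.card_pos.ne' Nat.card_pos.ne').1 fun q hq =>
      (hq.pow_dvd_iff_le_factorization Nat.card_pos.ne').1 (hdvd q hq)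
  exact inf_eq_left.1 (eq_of_le_of_card_ge inf_le_left (Nat.le_of_dvd Nat.card_pos hcardKC))

/-- If five is isolated, the normaliser of an element of order five contains an element acting
nontrivially on it, outside any normal subgroup avoiding five with commutative quotient. -/
theorem five_normalizer (hG : Nat.card G = 7920) (hA : Split G A) (h5 : 5 ∉ A) (h2 : 2 ∈ A)
    (h3 : 3 ∈ A) :
    ∃ g h : G, orderOf g = 5 ∧ g * h ≠ h * g ∧ h ^ 4 = 1 ∧ h * g * h⁻¹ ∈ zpowers g := by
  haveI : Fact (Nat.Prime 5) := ⟨by norm_num⟩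
  obtain ⟨Q⟩ : Nonempty (Sylow 5 G) := inferInstance
  have hQ : Nat.card (Q : Subgroup G) = 5 :=
    (SmallSimple.card_sylow_subgroup Q (k := 1) (m := 1584) (by rw [hG]; norm_num) (by norm_num)).trans
      (pow_one _)
  obtain ⟨⟨g, hgQ⟩, hgo⟩ := exists_prime_orderOf_dvd_card' (G := (Q : Subgroup G)) 5 (by rw [hQ])
  rw [orderOf_mk] at hgo
  have hgen : zpowers g = (Q : Subgroup G) :=
    eq_of_le_of_card_ge (zpowers_le.2 hgQ) (by rw [Nat.card_zpowers, hgo, hQ])
  have hC : Nat.card (centralizer ((Q : Subgroup G) : Set G)) = 5 := by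
    set c := Nat.card (centralizer ((Q : Subgroup G) : Set G)) with hc
    have hQC : (Q : Subgroup G) ≤ centralizer ((Q : Subgroup G) : Set G) := by
      intro a ha
      rw [← hgen] at ha ⊢
      obtain ⟨i, rfl⟩ := ha
      rw [mem_centralizer_iff]
      rintro _ ⟨j, rfl⟩
      exact ((Commute.refl g).zpow_zpow j i).eq
    obtain ⟨r, hr⟩ : 5 ∣ c := hQ ▸ card_dvd_of_le hQC
    have hr1584 : r ∣ 1584 := by
      have h := card_subgroup_dvd_card (centralizer ((Q : Subgroup G) : Set G))
      rw [← hc, hr, hG] at h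
      exact Nat.dvd_of_mul_dvd_mul_left (show 0 < 5 by norm_num) h
    rcases eq_or_ne r 1 with rfl | hr1
    · simpa using hr
    exfalso
    obtain ⟨q, hq, hqr⟩ := Nat.exists_prime_and_dvd hr1
    have hqc : q ∣ Nat.card (centralizer ({g} : Set G)) :=
      (hqr.trans (Dvd.intro_left 5 hr.symm)).trans
        (card_dvd_of_le (centralizer_le (Set.singleton_subset_iff.2 hgQ)))
    have hqA := hA.not_mem_of_dvd_centralizer (by norm_num) hq hgo hqc h5
    rcases prime_cases hG hq (hqc.trans (card_subgroup_dvd_card _)) with rfl | rfl | rfl | rfl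
    · exact hqA h2
    · exact hqA h3
    · exact absurd (hqr.trans hr1584) (by norm_num)
    · exact hqA hA.eleven
  obtain ⟨i, hi, hNi⟩ := SmallSimple.exists_normalizer_index (p := 5) (Q : Subgroup G) hQ
  have hN : Nat.card (normalizer ((Q : Subgroup G) : Set G)) * Nat.card (Sylow 5 G) = 7920 := by
    rw [SmallSimple.card_sylow_eq_index Q, card_mul_index, hG]
  have hi4 : i = 4 := by
    refine cases_five (Nat.card (Sylow 5 G)) (Nat.mem_divisors.2 ⟨?_, by norm_num⟩)
      (card_sylow_modEq_one 5 G) i (Nat.mem_divisors.2 ⟨hi, by norm_num⟩) ?_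
    · have h := Q.card_dvd_index
      have hidx : (Q : Subgroup G).index = 1584 := by
        have := (Q : Subgroup G).card_mul_index
        rw [hQ, hG] at this; omega
      rwa [hidx] at h
    · rw [← hN, hNi, hC, mul_comm 5 i]
  haveI : Fact (Nat.Prime 2) := ⟨Nat.prime_two⟩
  set N := normalizer ((Q : Subgroup G) : Set G) with hNdef
  have hN20 : Nat.card N = 20 := by rw [hNi, hC, hi4]
  obtain ⟨S⟩ : Nonempty (Sylow 2 N) := inferInstance
  have hS4 : Nat.card (S : Subgroup N) = 4 :=
    (SmallSimple.card_sylow_subgroup S (k := 2) (m := 5) (by rw [hN20]; norm_num) (by norm_num)).trans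
      (by norm_num)
  obtain ⟨s, hs, hs1⟩ : ∃ s : N, s ∈ (S : Subgroup N) ∧ s ≠ 1 := by
    by_contra hcon
    push Not at hcon
    have hb : (S : Subgroup N) ≤ ⊥ := fun a ha => mem_bot.2 (hcon a ha)
    rw [le_bot_iff.1 hb, card_bot] at hS4
    norm_num at hS4
  have hs4 : (s : G) ^ 4 = 1 := by
    have h := pow_card_eq_one' (G := (S : Subgroup N)) (x := ⟨s, hs⟩)
    rw [hS4] at h
    exact congrArg (fun a : (S : Subgroup N) => ((a : N) : G)) h
  refine ⟨g, s, hgo, ?_, hs4, ?_⟩
  · intro hc
    have hsC : (s : G) ∈ centralizer ((Q : Subgroup G) : Set G) := by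
      rw [← hgen, mem_centralizer_iff]
      rintro _ ⟨j, rfl⟩
      exact ((show Commute g s from hc).zpow_left j).eq
    have h5 := orderOf_dvd_natCard (⟨s, hsC⟩ : centralizer ((Q : Subgroup G) : Set G))
    rw [orderOf_mk, hC] at h5
    have h4 := orderOf_dvd_of_pow_eq_one hs4
    have h1 := Nat.dvd_gcd h5 h4
    norm_num [orderOf_eq_one_iff] at h1
    exact hs1 h1
  · rw [hgen]
    exact (mem_normalizer_iff.1 s.2 g).1 hgQ

/-- A normal subgroup of order prime to five cannot absorb that action. -/
theorem five_absurd (hG : Nat.card G = 7920) (hA : Split G A) (h5 : 5 ∉ A) (h2 : 2 ∈ A) (h3 : 3 ∈ A)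
    (K : Subgroup G) [K.Normal] (hK : ¬ 5 ∣ Nat.card K)
    (hq : ∀ g h : G, h ^ 4 = 1 → h * g * h⁻¹ * g⁻¹ ∈ K) : False := by
  obtain ⟨g, h, hgo, hne, h4, hmem⟩ := five_normalizer hG hA h5 h2 h3
  apply hne
  set c : G := h * g * h⁻¹ * g⁻¹ with hc
  have hcz : c ∈ zpowers g := mul_mem hmem (inv_mem (mem_zpowers g))
  have hd1 : orderOf c ∣ 5 := by
    have h := orderOf_dvd_natCard (⟨c, hcz⟩ : zpowers g)
    rwa [orderOf_mk, Nat.card_zpowers, hgo] at h
  have hd2 : orderOf c ∣ Nat.card K := by
    have h' := orderOf_dvd_natCard (⟨c, hq g h h4⟩ : K)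
    rwa [orderOf_mk] at h'
  rcases (by norm_num : Nat.Prime 5).eq_one_or_self_of_dvd _ hd1 with h1 | h1
  · rw [orderOf_eq_one_iff, hc, mul_inv_eq_one, mul_inv_eq_iff_eq_mul] at h1
    exact h1.symm
  · exact absurd (h1 ▸ hd2) hK

/-- An element outside the side of two moves every nontrivial element of a small normal subgroup. -/
theorem exists_fixed {K : Subgroup G} [K.Normal] {g : G} {r : ℕ} [Fact r.Prime] (hg : orderOf g = r)
    (hcard : Nat.card K % r ≠ 1) : ∃ k ∈ K, k ≠ 1 ∧ g * k = k * g := by
  classical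
  haveI := Fintype.ofFinite K
  let e : Function.End K := fun a => ⟨g * a * g⁻¹, ‹K.Normal›.conj_mem a.1 a.2 g⟩
  have hiter : ∀ i : ℕ, ∀ a : K, (((e ^ i) a : K) : G) = g ^ i * a * (g ^ i)⁻¹ := by
    intro i
    induction i with
    | zero => intro a; simp only [pow_zero, one_mul, inv_one, mul_one]; rfl
    | succ i ih =>
      intro a
      rw [pow_succ, pow_succ]
      refine (ih (e a)).trans ?_
      show g ^ i * (g * a * g⁻¹) * (g ^ i)⁻¹ = _
      group
  have hpow : e ^ r ^ 1 = 1 := by
    funext a
    refine Subtype.ext ((hiter _ a).trans ?_)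
    rw [pow_one, ← hg, pow_orderOf_eq_one, one_mul, inv_one, mul_one]
    rfl
  have hmod := Equiv.Perm.card_fixedPoints_modEq hpow
  by_contra hc
  push Not at hc
  have h1 : Fintype.card (Function.fixedPoints e) = 1 := by
    refine Fintype.card_eq_one_iff.2 ⟨⟨1, Subtype.ext (by show g * (1 : G) * g⁻¹ = 1; group)⟩, fun a => ?_⟩
    refine Subtype.ext (Subtype.ext ?_)
    by_contra ha
    refine hc a.1.1 a.1.2 ha ?_
    have h := congrArg Subtype.val (a.2 : e a.1 = a.1)
    exact mul_inv_eq_iff_eq_mul.1 h
  rw [h1, ← Nat.card_eq_fintype_card, Nat.ModEq, Nat.one_mod_eq_one.2 (Fact.out : r.Prime).ne_one] at hmod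
  exact hcard hmod

/-- A subgroup of order nine does not act semiregularly on a set of fewer than eighteen elements,
not nine. -/
theorem nine_absurd {K : Subgroup G} [K.Normal] (hK : Nat.card K ≤ 18) (hK9 : Nat.card K ≠ 10)
    (hK1 : 1 < Nat.card K) (Q : Subgroup G) (hQ : Nat.card Q = 9)
    (hfree : ∀ s ∈ Q, s ≠ 1 → ∀ k ∈ K, s * k = k * s → k = 1) : False := by
  classical
  haveI := Fintype.ofFinite K
  haveI := Fintype.ofFinite Q
  let orb : K → Finset K := fun k =>
    Finset.univ.image fun s : Q => (⟨(s : G) * k * (s : G)⁻¹, ‹K.Normal›.conj_mem k.1 k.2 s⟩ : K)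
  have horb : ∀ k : K, k ≠ 1 → (orb k).card = 9 := by
    intro k hk
    rw [← hQ, Nat.card_eq_fintype_card]
    refine Finset.card_image_of_injective _ fun a b h => ?_
    have h' := congrArg Subtype.val h
    simp only at h'
    by_contra hab
    refine hk (Subtype.ext (hfree ((b : G)⁻¹ * a) (mul_mem (inv_mem b.2) a.2)
      (fun e => hab (Subtype.ext (inv_mul_eq_one.1 e).symm)) k k.2 ?_))
    calc (b : G)⁻¹ * a * k = (b : G)⁻¹ * ((a : G) * k * (a : G)⁻¹) * a := by group
      _ = (b : G)⁻¹ * ((b : G) * k * (b : G)⁻¹) * a := by rw [h']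
      _ = k * ((b : G)⁻¹ * a) := by group
  have hone : ∀ k : K, k ≠ 1 → (1 : K) ∉ orb k := by
    intro k hk h
    obtain ⟨s, -, hs⟩ := Finset.mem_image.1 h
    have h' : (s : G) * k * (s : G)⁻¹ = 1 := congrArg Subtype.val hs
    rw [mul_inv_eq_iff_eq_mul, one_mul, mul_eq_left] at h'
    exact hk (Subtype.ext h')
  obtain ⟨k1, hk1⟩ : ∃ k : K, k ≠ 1 := by
    rw [Nat.card_eq_fintype_card] at hK1
    exact Fintype.exists_ne_of_one_lt_card hK1 1
  have hsub : orb k1 ⊆ Finset.univ.erase 1 := fun a ha =>
    Finset.mem_erase.2 ⟨fun h => hone k1 hk1 (h ▸ ha), Finset.mem_univ a⟩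
  obtain ⟨k2, hk2, hk2'⟩ : ∃ k2, k2 ∈ Finset.univ.erase (1 : K) ∧ k2 ∉ orb k1 := by
    by_contra hc
    push Not at hc
    have h := congrArg Finset.card (Finset.Subset.antisymm hsub hc)
    rw [horb k1 hk1, Finset.card_erase_of_mem (Finset.mem_univ _), Finset.card_univ,
      ← Nat.card_eq_fintype_card] at h
    omega
  have hdisj : Disjoint (orb k1) (orb k2) := by
    rw [Finset.disjoint_left]
    intro a ha hb
    obtain ⟨s, -, hs⟩ := Finset.mem_image.1 ha
    obtain ⟨r, -, hr⟩ := Finset.mem_image.1 hb
    refine hk2' (Finset.mem_image.2 ⟨r⁻¹ * s, Finset.mem_univ _, ?_⟩)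
    have h' : (r : G) * k2 * (r : G)⁻¹ = (s : G) * k1 * (s : G)⁻¹ :=
      congrArg Subtype.val (hr.trans hs.symm)
    refine Subtype.ext ?_
    simp only [Subgroup.coe_mul, Subgroup.coe_inv]
    calc (r : G)⁻¹ * s * k1 * ((r : G)⁻¹ * s)⁻¹ = (r : G)⁻¹ * ((s : G) * k1 * (s : G)⁻¹) * r := by group
      _ = (r : G)⁻¹ * ((r : G) * k2 * (r : G)⁻¹) * r := by rw [h']
      _ = k2 := by group
  have hsub2 : orb k1 ∪ orb k2 ⊆ Finset.univ.erase 1 := Finset.union_subset hsub fun a ha =>
    Finset.mem_erase.2 ⟨fun h => hone k2 (Finset.ne_of_mem_erase hk2) (h ▸ ha), Finset.mem_univ a⟩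
  have h := Finset.card_le_card hsub2
  rw [Finset.card_union_of_disjoint hdisj, horb k1 hk1, horb k2 (Finset.ne_of_mem_erase hk2),
    Finset.card_erase_of_mem (Finset.mem_univ _), Finset.card_univ, ← Nat.card_eq_fintype_card] at h
  omega

/-- A normal subgroup with order divisible by eleven contains every Sylow subgroup for eleven. -/
theorem sylow_le (hG : Nat.card G = 7920) [Fact (Nat.Prime 11)] (N : Subgroup G) [N.Normal]
    (hN : 11 ∣ Nat.card N) (P : Sylow 11 G) : (P : Subgroup G) ≤ N := by
  obtain ⟨⟨x, hxN⟩, hx⟩ := exists_prime_orderOf_dvd_card' (G := N) 11 hN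
  rw [orderOf_mk] at hx
  obtain ⟨R, hR⟩ := (IsPGroup.of_card (p := 11) (n := 1)
      (G := zpowers x) (by rw [Nat.card_zpowers, hx, pow_one])).exists_le_sylow
  have hRN : (R : Subgroup G) ≤ N := by
    rw [← eq_of_le_of_card_ge hR (by rw [card_sylow hG R, Nat.card_zpowers, hx])]
    exact zpowers_le.2 hxN
  obtain ⟨g, hg⟩ := MulAction.exists_smul_eq G R P
  rw [← hg, Sylow.coe_subgroup_smul]
  rintro _ ⟨a, ha, rfl⟩
  exact ‹N.Normal›.conj_mem a (hRN ha) g

/-- The number of Sylow subgroups for eleven is forty-five or one hundred and forty-four. -/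
theorem card_sylow_cases (hG : Nat.card G = 7920) (hA : Split G A) [Fact (Nat.Prime 11)] :
    Nat.card (Sylow 11 G) = 45 ∨ Nat.card (Sylow 11 G) = 144 := by
  classical
  obtain ⟨P⟩ : Nonempty (Sylow 11 G) := inferInstance
  have hP := card_sylow hG P
  have hdvd : Nat.card (Sylow 11 G) ∈ Nat.divisors 720 := by
    refine Nat.mem_divisors.2 ⟨?_, by norm_num⟩
    have h := P.card_dvd_index
    have hidx : (P : Subgroup G).index = 720 := by
      have := (P : Subgroup G).card_mul_index
      rw [hP, hG] at this; omega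
    rwa [hidx] at h
  have hN : Nat.card (normalizer ((P : Subgroup G) : Set G)) * Nat.card (Sylow 11 G) = 7920 := by
    rw [SmallSimple.card_sylow_eq_index P, card_mul_index, hG]
  obtain ⟨i, hi, hNi⟩ := SmallSimple.exists_normalizer_index (p := 11) (P : Subgroup G) hP
  obtain ⟨⟨x, hxP⟩, hx⟩ := exists_prime_orderOf_dvd_card' (G := (P : Subgroup G)) 11 (by rw [hP])
  rw [orderOf_mk] at hx
  set C := centralizer ((P : Subgroup G) : Set G) with hC
  have hi' : i ∈ Nat.divisors 10 := Nat.mem_divisors.2 ⟨hi, by norm_num⟩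
  have hside : ∀ q : ℕ, q.Prime → q ∣ Nat.card C → q ∈ A := fun q hq hd =>
    hA.mem_of_dvd_centralizer (by norm_num) hq hx
      (hd.trans (card_dvd_of_le (centralizer_le (Set.singleton_subset_iff.2 hxP)))) hA.eleven
  rcases cases_eleven _ hdvd (card_sylow_modEq_one 11 G) with hn | hn | hn | hn
  · exfalso
    rw [hn, mul_one] at hN
    have htop : normalizer ((P : Subgroup G) : Set G) = ⊤ := eq_top_of_card_eq _ (hN.trans hG.symm)
    have h2C : 2 ∣ Nat.card C := by fin_cases hi' <;> omega
    have h3C : 3 ∣ Nat.card C := by fin_cases hi' <;> omega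
    have h2A := hside 2 Nat.prime_two h2C
    have h3A := hside 3 Nat.prime_three h3C
    obtain ⟨b, hbA, hb, hbG⟩ := hA.outside
    have h5A : 5 ∉ A := by
      rcases prime_cases hG hb hbG with rfl | rfl | rfl | rfl
      · exact absurd h2A hbA
      · exact absurd h3A hbA
      · exact hbA
      · exact absurd hA.eleven hbA
    have h5C : ¬ 5 ∣ Nat.card C := fun h => h5A (hside 5 (by norm_num) h)
    haveI hPn : (P : Subgroup G).Normal := normalizer_eq_top_iff.1 htop
    haveI : C.Normal := by rw [hC]; infer_instance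
    refine five_absurd hG hA h5A h2A h3A C h5C fun g h _ => ?_
    rw [hC, mem_centralizer_iff]
    intro z hz
    haveI : IsCyclic (P : Subgroup G) := isCyclic_of_prime_card hP
    have key : ∀ a b : MulAut (P : Subgroup G), a * b = b * a := fun a b => by
      first
      | exact (IsCyclic.mulAutMulEquiv (P : Subgroup G)).injective (by rw [map_mul, map_mul, mul_comm])
      | exact (IsCyclic.mulAutMulEquiv (P : Subgroup G)).symm.injective (by rw [map_mul, map_mul, mul_comm])
    set φ := MulAut.conjNormal (H := (P : Subgroup G)) with hφ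
    have h1 : φ (h * g * h⁻¹ * g⁻¹) = 1 := by
      rw [map_mul, map_mul, map_mul, key (φ h), mul_assoc (φ g), ← map_mul φ h, mul_inv_cancel, map_one,
        mul_one, ← map_mul, mul_inv_cancel, map_one]
    have h2 := congrArg (fun f : MulAut (P : Subgroup G) => ((f ⟨z, hz⟩ : (P : Subgroup G)) : G)) h1
    simp only [hφ, MulAut.conjNormal_apply, MulAut.one_apply] at h2
    rw [mul_inv_eq_iff_eq_mul] at h2
    exact h2.symm
  · exfalso
    rw [hn] at hN
    have hN660 : Nat.card (normalizer ((P : Subgroup G) : Set G)) = 660 := by omega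
    set K := (MulAction.toPermHom G (Sylow 11 G)).ker with hK
    have hKmem : ∀ c : G, c ∈ K ↔ ∀ Q : Sylow 11 G, c • Q = Q := by
      intro c
      rw [hK, MonoidHom.mem_ker]
      constructor
      · intro h Q; exact congrArg (fun e : Equiv.Perm (Sylow 11 G) => e Q) h
      · intro h; exact Equiv.ext h
    have hKN : K ≤ normalizer ((P : Subgroup G) : Set G) := fun c hc =>
      Sylow.smul_eq_iff_mem_normalizer.1 ((hKmem c).1 hc P)
    have hK11 : ¬ 11 ∣ Nat.card K := by
      intro h
      have hall : ∀ Q : Sylow 11 G, Q = P := by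
        intro Q
        have hQK := sylow_le hG K h Q
        refine Sylow.ext ((eq_of_le_of_card_ge ?_ (by rw [card_sylow hG Q, hP])))
        intro a ha
        have h1 := IsPGroup.inf_normalizer_sylow (P := (Q : Subgroup G)) Q.isPGroup' P
        exact (Subgroup.mem_inf.1 (h1.le (Subgroup.mem_inf.2 ⟨ha, hKN (hQK ha)⟩))).2
      have : Nat.card (Sylow 11 G) = 1 :=
        Nat.card_eq_one_iff_unique.2 ⟨⟨fun a b => (hall a).trans (hall b).symm⟩, ⟨P⟩⟩
      omega
    have hKC : K ≤ C := le_centralizer hG P K hK11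
    have hPC : (P : Subgroup G) ≤ C := by
      intro a ha
      haveI : IsCyclic (P : Subgroup G) := isCyclic_of_prime_card hP
      rw [hC, mem_centralizer_iff]
      intro b hb
      exact congrArg Subtype.val ((IsCyclic.isMulCommutative).is_comm.comm (⟨b, hb⟩ : (P : Subgroup G)) ⟨a, ha⟩)
    obtain ⟨Q0, hQ0⟩ : ∃ Q0 : Sylow 11 G, Q0 ≠ P := by
      by_contra hc
      push Not at hc
      have : Nat.card (Sylow 11 G) = 1 :=
        Nat.card_eq_one_iff_unique.2 ⟨⟨fun a b => (hc a).trans (hc b).symm⟩, ⟨P⟩⟩
      omega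
    have hCP : ∀ c ∈ C, c • P = P := fun c hc => Sylow.smul_eq_iff_mem_normalizer.2
      (mem_normalizer_iff.2 fun z => ⟨fun hz => by
        rw [← mem_centralizer_iff.1 hc z hz, mul_inv_cancel_right]; exact hz,
        fun hz => by
          have h1 := mem_centralizer_iff.1 hc _ hz
          have : c * z * c⁻¹ = z := mul_left_cancel (h1.symm.trans (by group) : c * (c * z * c⁻¹) = c * z)
          exact this ▸ hz⟩)
    set S := MulAction.stabilizer C Q0 with hS
    have horbit : Nat.card (MulAction.orbit C Q0) ≤ 11 := by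
      have hsub : MulAction.orbit C Q0 ⊆ {R : Sylow 11 G | R ≠ P} := by
        rintro R ⟨c, rfl⟩ h
        exact hQ0 (by
          have h' : (c : G) • Q0 = P := h
          rw [← inv_smul_smul (c : G) Q0, h', hCP _ (inv_mem c.2)])
      refine (Set.ncard_le_ncard hsub).trans ?_
      have : ({R : Sylow 11 G | R ≠ P} : Set (Sylow 11 G)) = {P}ᶜ := rfl
      rw [this, Set.ncard_compl, Set.ncard_singleton, hn]
    -- the elements of the stabiliser act trivially
    have hSK : ∀ c : C, c ∈ S → (c : G) ∈ K := by
      intro c hc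
      have hc0 : (c : G) • Q0 = Q0 := hc
      have hcx : (c : G) * x = x * c := (mem_centralizer_iff.1 c.2 x hxP).symm
      have hpow : ∀ j : ℕ, (c : G) • (x ^ j • Q0) = x ^ j • Q0 := by
        intro j
        rw [smul_smul, ((show Commute (c : G) x from hcx).pow_right j).eq, ← smul_smul, hc0]
      rw [hKmem]
      intro R
      by_cases hR : R = P
      · rw [hR]; exact hCP _ c.2
      -- the powers of x move Q0 over all the others
      have hnofix : ∀ j, 0 < j → j < 11 → x ^ j • Q0 ≠ Q0 := by
        intro j hj0 hj h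
        apply hQ0
        have hxj : x ^ j ∈ (Q0 : Subgroup G) := by
          have h1 := IsPGroup.inf_normalizer_sylow (P := (P : Subgroup G)) P.isPGroup' Q0
          exact (Subgroup.mem_inf.1 (h1.le (Subgroup.mem_inf.2
            ⟨pow_mem hxP j, Sylow.smul_eq_iff_mem_normalizer.1 h⟩))).2
        have ho : orderOf (x ^ j) = 11 := by
          rw [Nat.Coprime.orderOf_pow, hx]
          rw [hx]
          exact (Nat.Prime.coprime_iff_not_dvd (by norm_num)).2 fun h => by
            have := Nat.le_of_dvd hj0 h; omega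
        have e : ∀ R : Sylow 11 G, x ^ j ∈ (R : Subgroup G) → zpowers (x ^ j) = R := fun R hR =>
          eq_of_le_of_card_ge (zpowers_le.2 hR) (by rw [Nat.card_zpowers, ho, card_sylow hG R])
        exact Sylow.ext ((e Q0 hxj).symm.trans (e P (pow_mem hxP j)))
      haveI := Fintype.ofFinite (Sylow 11 G)
      have hinj : Set.InjOn (fun j : ℕ => x ^ j • Q0) (Finset.range 11) := by
        intro a ha b hb hab
        simp only [Finset.coe_range, Set.mem_Iio] at ha hb
        by_contra hne
        rcases Nat.lt_or_gt_of_ne hne with hlt | hlt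
        · refine hnofix (b - a) (by omega) (by omega) ?_
          have e : x ^ b = x ^ a * x ^ (b - a) := by rw [← pow_add]; congr 1; omega
          simp only at hab
          rw [e, ← smul_smul] at hab
          exact (MulAction.injective (x ^ a) hab).symm
        · refine hnofix (a - b) (by omega) (by omega) ?_
          have e : x ^ a = x ^ b * x ^ (a - b) := by rw [← pow_add]; congr 1; omega
          simp only at hab
          rw [e, ← smul_smul] at hab
          exact MulAction.injective (x ^ b) hab
      have himg : (Finset.range 11).image (fun j : ℕ => x ^ j • Q0) = Finset.univ.erase P := by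
        refine Finset.eq_of_subset_of_card_le (fun a ha => ?_) ?_
        · obtain ⟨j, -, rfl⟩ := Finset.mem_image.1 ha
          refine Finset.mem_erase.2 ⟨fun h => hQ0 ?_, Finset.mem_univ _⟩
          rw [← inv_smul_smul (x ^ j) Q0, h]
          exact hCP _ (inv_mem (hPC (pow_mem hxP j)))
        · rw [Finset.card_erase_of_mem (Finset.mem_univ _), Finset.card_univ,
            ← Nat.card_eq_fintype_card, hn, Finset.card_image_of_injOn hinj, Finset.card_range]
      obtain ⟨j, -, rfl⟩ := Finset.mem_image.1 (himg.ge (Finset.mem_erase.2 ⟨hR, Finset.mem_univ R⟩))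
      exact hpow j
    have hSle : Nat.card S ≤ Nat.card K :=
      Nat.card_le_card_of_injective (fun c : S => (⟨(c.1 : G), hSK c.1 c.2⟩ : K)) fun a b h =>
        Subtype.ext (Subtype.ext (congrArg Subtype.val h :))
    have hbound : Nat.card C ≤ 11 * Nat.card K := by
      have h := (MulAction.stabilizer C Q0).card_mul_index
      rw [MulAction.index_stabilizer, ← Nat.card_coe_set_eq] at h
      rw [← h, mul_comm 11]
      exact Nat.mul_le_mul hSle horbit
    obtain ⟨r, hr⟩ := card_dvd_of_le hKC
    have h11C : 11 ∣ Nat.card C := hP ▸ card_dvd_of_le hPC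
    have hKcard : 11 * Nat.card K = Nat.card C := by
      have hr11 : 11 ∣ r := ((by norm_num : Nat.Prime 11).dvd_mul.1 (hr ▸ h11C)).resolve_left hK11
      have hr0 : 0 < r := Nat.pos_of_ne_zero fun h => by
        rw [h, mul_zero] at hr; exact Nat.card_pos.ne' hr
      have hK0 : 0 < Nat.card K := Nat.card_pos
      have := Nat.le_of_dvd hr0 hr11
      have : r = 11 := by nlinarith
      rw [hr, this, mul_comm]
    have hKlist : Nat.card K = 60 ∨ Nat.card K = 30 ∨ Nat.card K = 12 ∨ Nat.card K = 6 := by
      fin_cases hi' <;> omega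
    have hKA : ∀ q : ℕ, q.Prime → q ∣ Nat.card K → q ∈ A := fun q hq hd =>
      hside q hq (hd.trans (card_dvd_of_le hKC))
    have h2A := hKA 2 Nat.prime_two (by rcases hKlist with h | h | h | h <;> rw [h] <;> norm_num)
    have h3A := hKA 3 Nat.prime_three (by rcases hKlist with h | h | h | h <;> rw [h] <;> norm_num)
    obtain ⟨b, hbA, hb, hbG⟩ := hA.outside
    have h5A : 5 ∉ A := by
      rcases prime_cases hG hb hbG with rfl | rfl | rfl | rfl
      · exact absurd h2A hbA
      · exact absurd h3A hbA
      · exact hbA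
      · exact absurd hA.eleven hbA
    have hK6 : Nat.card K = 12 ∨ Nat.card K = 6 := by
      rcases hKlist with h | h | h | h
      · exact absurd (hKA 5 (by norm_num) (by rw [h]; norm_num)) h5A
      · exact absurd (hKA 5 (by norm_num) (by rw [h]; norm_num)) h5A
      · exact Or.inl h
      · exact Or.inr h
    haveI : Fact (Nat.Prime 5) := ⟨by norm_num⟩
    obtain ⟨g, hg⟩ := exists_prime_orderOf_dvd_card' (G := G) 5 (by rw [hG]; norm_num)
    have hKn : Nat.card K % 5 ≠ 1 → False := by
      intro hne
      obtain ⟨k, hkK, hk1, hgk⟩ := exists_fixed (K := K) hg hne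
      obtain ⟨q, hq, hqk⟩ := Nat.exists_prime_and_dvd
        (show orderOf k ≠ 1 from fun h => hk1 (orderOf_eq_one_iff.1 h))
      have hqK : q ∣ Nat.card K := hqk.trans (by
        have h := orderOf_dvd_natCard (⟨k, hkK⟩ : K); rwa [orderOf_mk] at h)
      refine hA.not_mem_of_dvd_centralizer (by norm_num) hq hg ?_ h5A (hKA q hq hqK)
      have hkC : k ∈ centralizer ({g} : Set G) := mem_centralizer_singleton_iff.2 hgk.symm
      refine hqk.trans ?_
      have h := orderOf_dvd_natCard (⟨k, hkC⟩ : centralizer ({g} : Set G))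
      rwa [orderOf_mk] at h
    rcases hK6 with h | h
    · exact hKn (by rw [h]; norm_num)
    · -- an element of order three of the normal subgroup of order six is fixed
      haveI : Fact (Nat.Prime 3) := ⟨Nat.prime_three⟩
      obtain ⟨T⟩ : Nonempty (Sylow 3 K) := inferInstance
      have hT : Nat.card (T : Subgroup K) = 3 :=
        (SmallSimple.card_sylow_subgroup T (k := 1) (m := 2) (by rw [h]; norm_num) (by norm_num)).trans
          (pow_one _)
      have hidx : (T : Subgroup K).index = 2 := by
        have h' := (T : Subgroup K).card_mul_index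
        rw [hT, h] at h'
        omega
      haveI := Subgroup.normal_of_index_eq_two hidx
      haveI : (T : Subgroup K).Characteristic := Sylow.characteristic_of_normal T ‹_›
      haveI : ((T : Subgroup K).map K.subtype).Normal := inferInstance
      obtain ⟨k, hkT, hk1, hgk⟩ := exists_fixed (K := (T : Subgroup K).map K.subtype) hg
        (by rw [card_map_of_injective K.subtype_injective, hT]; norm_num)
      refine hA.not_mem_of_dvd_centralizer (by norm_num) Nat.prime_three hg ?_ h5A h3A
      have hkC : k ∈ centralizer ({g} : Set G) := mem_centralizer_singleton_iff.2 hgk.symm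
      have h3 := orderOf_dvd_natCard (⟨k, hkT⟩ : ((T : Subgroup K).map K.subtype : Subgroup G))
      rw [orderOf_mk, card_map_of_injective K.subtype_injective, hT] at h3
      have := (Nat.prime_three.eq_one_or_self_of_dvd _ h3).resolve_left
        (fun h' => hk1 (orderOf_eq_one_iff.1 h'))
      rw [← this, ← orderOf_mk k hkC]
      exact orderOf_dvd_natCard _
  · exact Or.inl hn
  · exact Or.inr hn

/-- With forty-five Sylow subgroups for eleven the action on them is faithful. -/
theorem faithful (hG : Nat.card G = 7920) (hA : Split G A) [Fact (Nat.Prime 11)]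
    (hn : Nat.card (Sylow 11 G) = 45) {g : G} (hg : ∀ Q : Sylow 11 G, g • Q = Q) : g = 1 := by
  classical
  obtain ⟨P⟩ : Nonempty (Sylow 11 G) := inferInstance
  have hP := card_sylow hG P
  obtain ⟨⟨x, hxP⟩, hx⟩ := exists_prime_orderOf_dvd_card' (G := (P : Subgroup G)) 11 (by rw [hP])
  rw [orderOf_mk] at hx
  have hN : Nat.card (normalizer ((P : Subgroup G) : Set G)) * Nat.card (Sylow 11 G) = 7920 := by
    rw [SmallSimple.card_sylow_eq_index P, card_mul_index, hG]
  rw [hn] at hN
  set K := (MulAction.toPermHom G (Sylow 11 G)).ker with hK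
  have hKmem : ∀ c : G, c ∈ K ↔ ∀ Q : Sylow 11 G, c • Q = Q := by
    intro c
    rw [hK, MonoidHom.mem_ker]
    constructor
    · intro h Q; exact congrArg (fun e : Equiv.Perm (Sylow 11 G) => e Q) h
    · intro h; exact Equiv.ext h
  have hKN : K ≤ normalizer ((P : Subgroup G) : Set G) := fun c hc =>
    Sylow.smul_eq_iff_mem_normalizer.1 ((hKmem c).1 hc P)
  have hK11 : ¬ 11 ∣ Nat.card K := by
    intro h
    have hall : ∀ Q : Sylow 11 G, Q = P := by
      intro Q
      have hQK := sylow_le hG K h Q
      refine Sylow.ext ((eq_of_le_of_card_ge ?_ (by rw [card_sylow hG Q, hP])))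
      intro a ha
      have h1 := IsPGroup.inf_normalizer_sylow (P := (Q : Subgroup G)) Q.isPGroup' P
      exact (Subgroup.mem_inf.1 (h1.le (Subgroup.mem_inf.2 ⟨ha, hKN (hQK ha)⟩))).2
    have : Nat.card (Sylow 11 G) = 1 :=
      Nat.card_eq_one_iff_unique.2 ⟨⟨fun a b => (hall a).trans (hall b).symm⟩, ⟨P⟩⟩
    omega
  have h16 : Nat.card K ∣ 16 := by
    have h := card_dvd_of_le hKN
    rw [show Nat.card (normalizer ((P : Subgroup G) : Set G)) = 11 * 16 by omega] at h
    exact (Nat.Coprime.dvd_of_dvd_mul_left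
      ((Nat.Prime.coprime_iff_not_dvd (by norm_num)).2 hK11).symm h)
  by_contra hg1
  have hK1 : Nat.card K ≠ 1 := fun h => by
    rw [card_eq_one] at h
    exact hg1 (mem_bot.1 (h ▸ (hKmem g).2 hg))
  have h2K : 2 ∣ Nat.card K := by
    obtain ⟨q, hq, hqK⟩ := Nat.exists_prime_and_dvd hK1
    rwa [← (Nat.prime_dvd_prime_iff_eq hq Nat.prime_two).1
      (hq.dvd_of_dvd_pow (n := 4) (hqK.trans (h16.trans (by norm_num))))]
  have h2A : 2 ∈ A := hA.mem_of_dvd_centralizer (by norm_num) Nat.prime_two hx
    ((h2K.trans (card_dvd_of_le (le_centralizer hG P K hK11))).trans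
      (card_dvd_of_le (centralizer_le (Set.singleton_subset_iff.2 hxP)))) hA.eleven
  have hmove : ∀ (s : G) (r : ℕ), r.Prime → r ∉ A → orderOf s = r → ∀ k ∈ K, s * k = k * s → k = 1 := by
    intro s r hr hrA hs k hk hsk
    by_contra hk1
    have hkC : k ∈ centralizer ({s} : Set G) := mem_centralizer_singleton_iff.2 hsk.symm
    refine hA.not_mem_of_dvd_centralizer hr Nat.prime_two hs ?_ hrA h2A
    have h1 := orderOf_dvd_natCard (⟨k, hkC⟩ : centralizer ({s} : Set G))
    rw [orderOf_mk] at h1
    refine dvd_trans ?_ h1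
    have h2 : orderOf k ∣ 2 ^ 4 := by
      have h := (orderOf_dvd_natCard (⟨k, hk⟩ : K)).trans h16
      rwa [orderOf_mk] at h
    obtain ⟨j, -, hj⟩ := (Nat.dvd_prime_pow Nat.prime_two).1 h2
    rw [hj]
    exact dvd_pow_self 2 fun h => hk1 (orderOf_eq_one_iff.1 (by rw [hj, h, pow_zero]))
  haveI : Fact (Nat.Prime 3) := ⟨Nat.prime_three⟩
  haveI : Fact (Nat.Prime 5) := ⟨by norm_num⟩
  have hKlist : Nat.card K ∈ Nat.divisors 16 := Nat.mem_divisors.2 ⟨h16, by norm_num⟩
  have h3A : 3 ∈ A := by
    by_contra h3A
    obtain ⟨Q⟩ : Nonempty (Sylow 3 G) := inferInstance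
    have hQ : Nat.card (Q : Subgroup G) = 9 :=
      (SmallSimple.card_sylow_subgroup Q (k := 2) (m := 880) (by rw [hG]; norm_num) (by norm_num)).trans
        (by norm_num)
    refine nine_absurd (K := K) (Nat.le_trans (Nat.le_of_dvd (by norm_num) h16) (by norm_num))
      (fun h => by rw [h] at h16; norm_num at h16)
      (by have := Nat.pos_of_dvd_of_pos h16 (by norm_num); omega) Q hQ fun s hs hs1 k hk hsk => ?_
    obtain ⟨j, hj2, hj⟩ := (Nat.dvd_prime_pow Nat.prime_three).1
      (show orderOf s ∣ 3 ^ 2 by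
        have h := orderOf_dvd_natCard (⟨s, hs⟩ : (Q : Subgroup G))
        rwa [orderOf_mk, hQ] at h)
    have hj0 : j ≠ 0 := fun h => hs1 (orderOf_eq_one_iff.1 (by rw [hj, h, pow_zero]))
    refine hmove (s ^ 3 ^ (j - 1)) 3 Nat.prime_three h3A ?_ k hk
      ((show Commute s k from hsk).pow_left _).eq
    rw [orderOf_pow' _ (by positivity), hj, Nat.gcd_eq_right (pow_dvd_pow 3 (Nat.sub_le j 1)),
      Nat.pow_div (Nat.sub_le j 1) (by norm_num), show j - (j - 1) = 1 by omega, pow_one]
  obtain ⟨b, hbA, hb, hbG⟩ := hA.outside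
  have h5A : 5 ∉ A := by
    rcases prime_cases hG hb hbG with rfl | rfl | rfl | rfl
    · exact absurd h2A hbA
    · exact absurd h3A hbA
    · exact hbA
    · exact absurd hA.eleven hbA
  obtain ⟨s, hs⟩ := exists_prime_orderOf_dvd_card' (G := G) 5 (by rw [hG]; norm_num)
  have hK16 : Nat.card K = 16 := by
    by_contra hne
    have : Nat.card K % 5 ≠ 1 := by
      obtain ⟨j, hj4, hj⟩ := (Nat.dvd_prime_pow Nat.prime_two).1 (show Nat.card K ∣ 2 ^ 4 from h16)
      rw [hj] at hne hK1 ⊢
      interval_cases j <;> simp at hne hK1 ⊢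
    obtain ⟨k, hk, hk1, hsk⟩ := exists_fixed (K := K) hs this
    exact hk1 (hmove s 5 (by norm_num) h5A hs k hk hsk)
  refine five_absurd hG hA h5A h2A h3A K (by rw [hK16]; norm_num) fun u v hv => ?_
  -- an element of two-power order lies in the normal Sylow subgroup
  have hvK : v ∈ K := by
    rw [← QuotientGroup.eq_one_iff, ← orderOf_eq_one_iff]
    have hd1 : orderOf (v : G ⧸ K) ∣ 4 := orderOf_dvd_of_pow_eq_one (by
      rw [← QuotientGroup.mk_pow, hv]; rfl)
    have hd2 : orderOf (v : G ⧸ K) ∣ 495 := by
      have h := orderOf_dvd_natCard (v : G ⧸ K)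
      have hc := Subgroup.card_eq_card_quotient_mul_card_subgroup K
      rw [hK16, hG] at hc
      rwa [show Nat.card (G ⧸ K) = 495 by omega] at h
    have := Nat.dvd_gcd hd1 hd2
    norm_num at this
    first
    | exact this
    | exact orderOf_eq_one_iff.2 ((QuotientGroup.eq_one_iff v).2 this)
  rw [show v * u * v⁻¹ * u⁻¹ = v * (u * v⁻¹ * u⁻¹) by group]
  exact mul_mem hvK ((inferInstance : K.Normal).conj_mem v⁻¹ (inv_mem hvK) u)

/-- The main theorem. -/
theorem isSimple (hG : Nat.card G = 7920) (hA : Split G A) : IsSimpleGroup G := by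
  classical
  haveI : Fact (Nat.Prime 11) := ⟨by norm_num⟩
  haveI : Nontrivial G := by rw [← Finite.one_lt_card_iff_nontrivial, hG]; norm_num
  refine ⟨fun N hN => ?_⟩
  by_contra hNne
  push Not at hNne
  obtain ⟨hbot, htop⟩ := hNne
  obtain ⟨P⟩ : Nonempty (Sylow 11 G) := inferInstance
  have hP := card_sylow hG P
  have hcases := card_sylow_cases hG hA
  have hNP : Nat.card (normalizer ((P : Subgroup G) : Set G)) * Nat.card (Sylow 11 G) = 7920 := by
    rw [SmallSimple.card_sylow_eq_index P, card_mul_index, hG]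
  -- a minimal normal subgroup of order divisible by eleven
  obtain ⟨M, ⟨hMn, hM11⟩, hMmin⟩ := Set.Finite.exists_minimal (α := Subgroup G)
    (s := {M : Subgroup G | M.Normal ∧ 11 ∣ Nat.card M}) (Set.toFinite _)
    ⟨⊤, inferInstance, by rw [card_top, hG]; norm_num⟩
  haveI := hMn
  have hPM : ∀ Q : Sylow 11 G, (Q : Subgroup G) ≤ M := sylow_le hG M hM11
  have hnM : Nat.card (Sylow 11 M) = Nat.card (Sylow 11 G) := by
    refine (Nat.card_eq_of_bijective (fun Q : Sylow 11 G => Q.subtype (hPM Q))
      ⟨fun Q R h => Sylow.subtype_injective h, fun R => ?_⟩).symm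
    have hR : Nat.card (R : Subgroup M) = 11 := by
      rw [R.card_eq_multiplicity]
      have : (Nat.card M).factorization 11 = 1 := by
        refine le_antisymm ?_ ((by norm_num : Nat.Prime 11).factorization_pos_of_dvd Nat.card_pos.ne' hM11)
        by_contra h
        have h2 := ((by norm_num : Nat.Prime 11).pow_dvd_iff_le_factorization Nat.card_pos.ne').2
          (show 2 ≤ (Nat.card M).factorization 11 by omega)
        have h3 := h2.trans (card_subgroup_dvd_card M)
        rw [hG] at h3
        norm_num at h3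
      rw [this, pow_one]
    obtain ⟨Q, hQ⟩ := (IsPGroup.of_card (p := 11) (n := 1) (G := (R : Subgroup M).map M.subtype)
      (by rw [card_map_of_injective M.subtype_injective, hR, pow_one])).exists_le_sylow
    refine ⟨Q, Sylow.ext ?_⟩
    have he : (Q : Subgroup G) = (R : Subgroup M).map M.subtype :=
      (eq_of_le_of_card_ge hQ (by rw [card_sylow hG Q, card_map_of_injective M.subtype_injective, hR])).symm
    rw [Sylow.coe_subtype, he, subgroupOf, comap_map_eq_self_of_injective M.subtype_injective]
  have hnpos : 1 < Nat.card (Sylow 11 G) := by omega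
  -- it is perfect
  have hperf : _root_.commutator M = ⊤ := by
    set D := (_root_.commutator M).map M.subtype with hD
    haveI : D.Normal := inferInstance
    have hDM : D ≤ M := map_subtype_le _
    by_cases h11 : 11 ∣ Nat.card D
    · have := le_antisymm (hMmin ⟨inferInstance, h11⟩ hDM) hDM
      exact map_injective M.subtype_injective (this.symm.trans (by rw [← MonoidHom.range_eq_map, range_subtype]))
    · exfalso
      have hall : ∀ Q : Sylow 11 G, Q = P := by
        intro Q
        have hQC : ∀ a ∈ (Q : Subgroup G), a ∈ normalizer ((P : Subgroup G) : Set G) := by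
          intro a ha
          refine mem_normalizer_iff.2 fun z => ?_
          have key : ∀ z ∈ (P : Subgroup G), ∀ a ∈ M, a * z * a⁻¹ ∈ (P : Subgroup G) := by
            intro z hz a ha
            have hc : ⁅a, z⁆ ∈ D :=
              ⟨⁅(⟨a, ha⟩ : M), (⟨z, hPM P hz⟩ : M)⁆, (by
                rw [SetLike.mem_coe, _root_.commutator_def]
                exact Subgroup.commutator_mem_commutator (mem_top _) (mem_top _)), rfl⟩
            have hcC := le_centralizer hG P D h11 hc
            have hcomm : a * z * a⁻¹ * z = z * (a * z * a⁻¹) := by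
              have h := mem_centralizer_iff.1 hcC z hz
              rw [commutatorElement_def] at h
              calc a * z * a⁻¹ * z = a * z * a⁻¹ * z⁻¹ * z * z := by group
                _ = z * (a * z * a⁻¹ * z⁻¹) * z := by rw [h]
                _ = z * (a * z * a⁻¹) := by group
            by_cases hz1 : z = 1
            · subst hz1; simp
            have hgen : zpowers z = (P : Subgroup G) := eq_of_le_of_card_ge (zpowers_le.2 hz) (by
              rw [hP, Nat.card_zpowers]
              have h := orderOf_dvd_natCard (⟨z, hz⟩ : (P : Subgroup G))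
              rw [hP, orderOf_mk] at h
              rcases (by norm_num : Nat.Prime 11).eq_one_or_self_of_dvd _ h with h' | h'
              · exact absurd (orderOf_eq_one_iff.1 h') hz1
              · exact h'.ge)
            have hC' : a * z * a⁻¹ ∈ normalizer ((P : Subgroup G) : Set G) := by
              refine centralizer_le_normalizer _ ?_
              rw [← hgen, mem_centralizer_iff]
              rintro _ ⟨j, rfl⟩
              exact ((show Commute z (a * z * a⁻¹) from hcomm.symm).zpow_left j).eq
            have h1 := IsPGroup.inf_normalizer_sylow (P := zpowers (a * z * a⁻¹))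
              (IsPGroup.of_card (n := 1) (by
                rw [Nat.card_zpowers, show a * z * a⁻¹ = MulAut.conj a z from rfl, MulEquiv.orderOf_eq,
                  ← Nat.card_zpowers, hgen, hP, pow_one])) P
            exact (Subgroup.mem_inf.1 (h1.le (Subgroup.mem_inf.2 ⟨mem_zpowers _, hC'⟩))).2
          constructor
          · exact fun hz => key z hz a (hPM Q ha)
          · intro hz
            have := key _ hz a⁻¹ (inv_mem (hPM Q ha))
            rwa [inv_inv, show a⁻¹ * (a * z * a⁻¹) * a = z by group] at this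
        refine Sylow.ext ((eq_of_le_of_card_ge ?_ (by rw [card_sylow hG Q, hP])))
        intro a ha
        have h1 := IsPGroup.inf_normalizer_sylow (P := (Q : Subgroup G)) Q.isPGroup' P
        exact (Subgroup.mem_inf.1 (h1.le (Subgroup.mem_inf.2 ⟨ha, hQC a ha⟩))).2
      have : Nat.card (Sylow 11 G) = 1 :=
        Nat.card_eq_one_iff_unique.2 ⟨⟨fun a b => (hall a).trans (hall b).symm⟩, ⟨P⟩⟩
      omega
  set P' := P.subtype (hPM P) with hP'
  have hP'c : Nat.card (P' : Subgroup M) = 11 := by
    rw [hP', Sylow.coe_subtype, Nat.card_congr (subgroupOfEquivOfLe (hPM P)).toEquiv, hP]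
  have hnle := not_normalizer_le_centralizer hperf P' (fun h => by
    rw [h, card_bot] at hP'c; norm_num at hP'c)
  have hNC : Nat.card (normalizer ((P' : Subgroup M) : Set M)) * Nat.card (Sylow 11 M) = Nat.card M := by
    rw [SmallSimple.card_sylow_eq_index P', card_mul_index]
  rw [hnM] at hNC
  have hNM : normalizer ((P' : Subgroup M) : Set M) =
      (normalizer ((P : Subgroup G) : Set G)).subgroupOf M := by
    rw [hP', Sylow.coe_subtype, subgroupOf_normalizer_eq (hPM P)]
  rcases hcases with hn | hn
  · -- forty-five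
    rw [hn] at hNP hNC
    obtain ⟨i, hi, hNi⟩ := SmallSimple.exists_normalizer_index (p := 11) (P : Subgroup G) hP
    have hC11 : 11 ∣ Nat.card (centralizer ((P : Subgroup G) : Set G)) := by
      haveI : IsCyclic (P : Subgroup G) := isCyclic_of_prime_card hP
      have hPC : (P : Subgroup G) ≤ centralizer ((P : Subgroup G) : Set G) := fun a ha =>
        mem_centralizer_iff.2 fun b hb => congrArg Subtype.val
          ((IsCyclic.isMulCommutative).is_comm.comm (⟨b, hb⟩ : (P : Subgroup G)) ⟨a, ha⟩)
      have h := card_dvd_of_le hPC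
      rwa [hP] at h
    have hi2 : i ∣ 2 := by
      have h16 : i ∣ 16 := by
        obtain ⟨c, hc⟩ := hC11
        refine ⟨c, ?_⟩
        have h1 : Nat.card (normalizer ((P : Subgroup G) : Set G)) = 176 := by omega
        rw [hNi, hc] at h1
        nlinarith
      exact (Nat.dvd_gcd hi h16).trans (by norm_num)
    have hle : centralizer ((P : Subgroup G) : Set G) ≤ normalizer ((P : Subgroup G) : Set G) :=
      centralizer_le_normalizer _
    -- index at most two inside M
    set C' := centralizer ((P' : Subgroup M) : Set M) with hC'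
    set N' := normalizer ((P' : Subgroup M) : Set M) with hN'
    have hCM : C' = (centralizer ((P : Subgroup G) : Set G)).subgroupOf M := by
      ext a
      rw [hC', mem_subgroupOf, mem_centralizer_iff, mem_centralizer_iff]
      constructor
      · intro h z hz
        exact congrArg Subtype.val (h ⟨z, hPM P hz⟩ (by simp [hP', hz]; exact hz))
      · intro h z hz
        exact Subtype.ext (h _ (by rw [hP', Sylow.coe_subtype] at hz; exact mem_subgroupOf.1 hz))
    have hrel : C'.relIndex N' ∣ 2 := by
      haveI : ((centralizer ((P : Subgroup G) : Set G)).subgroupOf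
          (normalizer ((P : Subgroup G) : Set G))).Normal := by
        rw [← Subgroup.normalizerMonoidHom_ker]; infer_instance
      have hidx : (centralizer ((P : Subgroup G) : Set G)).relIndex
          (normalizer ((P : Subgroup G) : Set G)) = i := by
        have h := ((centralizer ((P : Subgroup G) : Set G)).subgroupOf
          (normalizer ((P : Subgroup G) : Set G))).card_mul_index
        rw [Nat.card_congr (subgroupOfEquivOfLe hle).toEquiv, hNi] at h
        exact Nat.eq_of_mul_eq_mul_left Nat.card_pos h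
      rw [hCM, hNM, subgroupOf, subgroupOf, relIndex_comap,
        map_comap_eq, range_subtype]
      refine dvd_trans ?_ (hidx ▸ hi2)
      rw [← relIndex_subgroupOf (inf_le_right : M ⊓ normalizer ((P : Subgroup G) : Set G) ≤ _)]
      exact relIndex_dvd_index_of_normal _ _
    have hrel2 : C'.relIndex N' = 2 := by
      rcases Nat.prime_two.eq_one_or_self_of_dvd _ hrel with h | h
      · exact absurd (relIndex_eq_one.1 h) hnle
      · exact h
    have hCN' : C' ≤ N' := centralizer_le_normalizer _
    have h2 : Nat.card N' = 2 * Nat.card C' := by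
      have h := (C'.subgroupOf N').card_mul_index
      rw [Nat.card_congr (subgroupOfEquivOfLe hCN').toEquiv] at h
      rw [← h, mul_comm]
      exact congrArg (· * _) hrel2
    refine no_fortyfive (H := M) hperf ?_ ?_ P' (by rw [hnM, hn]) h2
    · intro g hg
      refine Subtype.ext (faithful hG hA hn fun Q => ?_)
      have h := Sylow.smul_eq_iff_mem_normalizer.1 (hg (Q.subtype (hPM Q)))
      change g ∈ normalizer (((Q.subtype (hPM Q) : Sylow 11 M) : Subgroup M) : Set M) at h
      rw [Sylow.coe_subtype, ← subgroupOf_normalizer_eq (hPM Q), mem_subgroupOf] at h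
      exact Sylow.smul_eq_iff_mem_normalizer.2 h
    · intro Q
      exact (Q.card_eq_multiplicity.trans P'.card_eq_multiplicity.symm).trans hP'c
  · -- one hundred and forty-four
    rw [hn] at hNP hNC
    have hN55 : Nat.card (normalizer ((P : Subgroup G) : Set G)) = 55 := by omega
    have hN11 : 11 ∣ Nat.card N := by
      by_contra h
      have hle := le_centralizer hG P N h
      have hd : Nat.card N ∣ 55 := hN55 ▸ card_dvd_of_le (hle.trans (centralizer_le_normalizer _))
      have hN5 : Nat.card N = 5 := by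
        have h5 : Nat.card N ∣ 5 := Nat.Coprime.dvd_of_dvd_mul_left
          ((Nat.Prime.coprime_iff_not_dvd (show Nat.Prime 11 by norm_num)).2 h).symm
          (show Nat.card N ∣ 11 * 5 from hd)
        rcases (by norm_num : Nat.Prime 5).eq_one_or_self_of_dvd _ h5 with h1 | h1
        · exact absurd (card_eq_one.1 h1) hbot
        · exact h1
      haveI : Fact (Nat.Prime 5) := ⟨by norm_num⟩
      obtain ⟨i, hi, hNi⟩ := SmallSimple.exists_normalizer_index (p := 5) N hN5
      rw [normalizer_eq_top_iff.2 hN, card_top, hG] at hNi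
      obtain ⟨⟨z, hz⟩, hzo⟩ := exists_prime_orderOf_dvd_card' (G := N) 5 (by rw [hN5])
      rw [orderOf_mk] at hzo
      have hcle : centralizer (N : Set G) ≤ centralizer ({z} : Set G) :=
        centralizer_le (Set.singleton_subset_iff.2 hz)
      have hi4 : i ∈ Nat.divisors 4 := Nat.mem_divisors.2 ⟨hi, by norm_num⟩
      have hside : ∀ q : ℕ, q.Prime → q ∣ Nat.card (centralizer (N : Set G)) → (q ∈ A ↔ 5 ∈ A) := by
        intro q hq hd
        have hd' := hd.trans (card_dvd_of_le hcle)
        constructor
        · intro hqA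
          by_contra h5
          exact hA.not_mem_of_dvd_centralizer (by norm_num) hq hzo hd' h5 hqA
        · exact fun h5 => hA.mem_of_dvd_centralizer (by norm_num) hq hzo hd' h5
      have h5A : 5 ∈ A := (hside 11 (by norm_num) (by fin_cases hi4 <;> omega)).1 hA.eleven
      obtain ⟨b, hbA, hb, hbG⟩ := hA.outside
      rcases prime_cases hG hb hbG with rfl | rfl | rfl | rfl
      · exact hbA ((hside 2 Nat.prime_two (by fin_cases hi4 <;> omega)).2 h5A)
      · exact hbA ((hside 3 Nat.prime_three (by fin_cases hi4 <;> omega)).2 h5A)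
      · exact hbA h5A
      · exact hbA hA.eleven
    have hMN : M ≤ N := by
      have hinf : 11 ∣ Nat.card (M ⊓ N : Subgroup G) := hP ▸ card_dvd_of_le
        (le_inf (hPM P) (sylow_le hG N hN11 P))
      exact inf_eq_left.1 (le_antisymm inf_le_left (hMmin ⟨inferInstance, hinf⟩ inf_le_left))
    have hMlt : Nat.card M < 7920 := by
      rw [← hG]
      rcases (Nat.le_of_dvd Nat.card_pos (card_subgroup_dvd_card M)).lt_or_eq with h | h
      · exact h
      · exact absurd (top_le_iff.1 ((eq_top_of_card_eq M h).ge.trans hMN)) htop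
    have hd : Nat.card (normalizer ((P' : Subgroup M) : Set M)) ∣ 55 := by
      rw [← hN55, hNM]
      rw [← card_map_of_injective M.subtype_injective (K := (normalizer ((P : Subgroup G) : Set G)).subgroupOf M),
        subgroupOf, map_comap_eq]
      exact card_dvd_of_le inf_le_right
    have hN11' : Nat.card (normalizer ((P' : Subgroup M) : Set M)) = 11 := by
      have h11 : 11 ∣ Nat.card (normalizer ((P' : Subgroup M) : Set M)) :=
        Eq.subst (motive := fun k => k ∣ Nat.card (normalizer ((P' : Subgroup M) : Set M))) hP'c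
          (card_dvd_of_le (le_normalizer (H := (P' : Subgroup M))))
      have hle := Nat.le_of_dvd (by norm_num) hd
      have hlt : Nat.card (normalizer ((P' : Subgroup M) : Set M)) < 55 := by nlinarith
      obtain ⟨c, hc⟩ := h11
      have hc5 : c ∣ 5 := Nat.dvd_of_mul_dvd_mul_left (show 0 < 11 by norm_num) (hc ▸ hd)
      rcases (by norm_num : Nat.Prime 5).eq_one_or_self_of_dvd _ hc5 with h | h <;> omega
    apply hnle
    intro a ha
    rw [← eq_of_le_of_card_ge (le_normalizer (H := (P' : Subgroup M))) (by rw [hN11', hP'c])] at ha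
    haveI : IsCyclic (P' : Subgroup M) := isCyclic_of_prime_card hP'c
    rw [mem_centralizer_iff]
    intro b hb
    exact congrArg Subtype.val ((IsCyclic.isMulCommutative).is_comm.comm (⟨b, hb⟩ : (P' : Subgroup M)) ⟨a, ha⟩)

end Cfsg.Agent.Lib.Order7920Graph
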